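import Cfsg.Agent.Lib.ZStar.Main

/-!
Simple groups with an involution centralised by at most three involutions.
-/

namespace CfsgLib.ZStar

open Cfsg

universe u

variable {G : Type u} [Group G] [Finite G]

/-- The involutions commuting with `x` are among `x`, `a`, `x * a`. -/
theorem three_involutions {x : G} (hx : orderOf x = 2)
    (h3 : Nat.card {u : ↥(Subgroup.centralizer ({x} : Set G)) // orderOf u = 2} ≤ 3)
    {a : G} (ha : orderOf a = 2) (hxa : Commute x a) (hne : a ≠ x) {w : G} (hw : orderOf w = 2)
    (hxw : Commute x w) : w = x ∨ w = a ∨ w = x * a := by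
  classical
  by_contra hcon
  push Not at hcon
  have hb : orderOf (x * a) = 2 := by
    refine Involution.orderOf_eq_two ?_ fun h => hne ?_
    · rw [hxa.symm.mul_mul_mul_comm, Involution.mul_self hx, Involution.mul_self ha, one_mul]
    · rw [eq_inv_of_mul_eq_one_right h, Involution.inv_eq hx]
  have mem : ∀ v : G, Commute x v → v ∈ Subgroup.centralizer ({x} : Set G) := fun v hv =>
    Subgroup.mem_centralizer_singleton_iff.mpr hv.symm.eq
  let F : Fin 4 → G := ![x, a, x * a, w]
  have hF : ∀ i, orderOf (F i) = 2 ∧ Commute x (F i) := by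
    intro i
    fin_cases i
    · exact ⟨hx, Commute.refl x⟩
    · exact ⟨ha, hxa⟩
    · exact ⟨hb, (Commute.refl x).mul_right hxa⟩
    · exact ⟨hw, hxw⟩
  have h1 : x * a ≠ x := fun h => Involution.ne_one ha (mul_eq_left.mp h)
  have h2 : x * a ≠ a := fun h => Involution.ne_one hx (mul_eq_right.mp h)
  have hinj : Function.Injective F := by
    intro i j hij
    fin_cases i <;> fin_cases j <;>
      first
        | rfl
        | exact absurd hij.symm hne
        | exact absurd hij hne
        | exact absurd hij h1
        | exact absurd hij.symm h1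
        | exact absurd hij h2
        | exact absurd hij.symm h2
        | exact absurd hij hcon.1
        | exact absurd hij.symm hcon.1
        | exact absurd hij hcon.2.1
        | exact absurd hij.symm hcon.2.1
        | exact absurd hij hcon.2.2
        | exact absurd hij.symm hcon.2.2
  have := Nat.card_le_card_of_injective
    (fun i => (⟨⟨F i, mem _ (hF i).2⟩, by rw [← Subgroup.orderOf_coe]; exact (hF i).1⟩ :
      {u : ↥(Subgroup.centralizer ({x} : Set G)) // orderOf u = 2}))
    (fun i j h => hinj (congrArg (fun z => ((z.1 : Subgroup.centralizer ({x} : Set G)) : G)) h))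
  rw [Nat.card_fin] at this
  omega

theorem card_three_conj {x : G}
    (h3 : Nat.card {u : ↥(Subgroup.centralizer ({x} : Set G)) // orderOf u = 2} ≤ 3) {y : G}
    (hy : IsConj x y) :
    Nat.card {u : ↥(Subgroup.centralizer ({y} : Set G)) // orderOf u = 2} ≤ 3 := by
  obtain ⟨g, rfl⟩ := isConj_iff.mp hy
  refine le_trans (Nat.card_le_card_of_injective (fun u => (⟨⟨g⁻¹ * (u.1 : G) * g, ?_⟩, ?_⟩ :
    {u : ↥(Subgroup.centralizer ({x} : Set G)) // orderOf u = 2})) ?_) h3
  · rw [Subgroup.mem_centralizer_singleton_iff]
    have h := Subgroup.mem_centralizer_singleton_iff.mp u.1.2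
    calc g⁻¹ * (u.1 : G) * g * x = g⁻¹ * ((u.1 : G) * (g * x * g⁻¹)) * g := by group
      _ = g⁻¹ * ((g * x * g⁻¹) * (u.1 : G)) * g := by rw [h]
      _ = x * (g⁻¹ * (u.1 : G) * g) := by group
  · rw [← Subgroup.orderOf_coe]
    have h := u.2
    rw [← Subgroup.orderOf_coe] at h
    have e := orderOf_injective (MulAut.conj g⁻¹).toMonoidHom (MulEquiv.injective _) (u.1 : G)
    simp only [MulEquiv.coe_toMonoidHom, MulAut.conj_apply, inv_inv] at e
    exact e.trans h
  · intro u v h
    refine Subtype.ext (Subtype.ext ?_)
    have := congrArg (fun z : {u : ↥(Subgroup.centralizer ({x} : Set G)) // orderOf u = 2} =>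
      (z.1 : G)) h
    simpa using this

/-- All the involutions are conjugate. -/
theorem isConj_of_three [IsSimpleGroup G] {x : G} (hx : orderOf x = 2)
    (h3 : Nat.card {u : ↥(Subgroup.centralizer ({x} : Set G)) // orderOf u = 2} ≤ 3)
    {u : G} (hu : orderOf u = 2) : IsConj x u := by
  by_cases hiso : IsIsolatedInvolution x
  · -- then `x` is central
    have hbot : oddCore G = ⊥ := by
      refine ((oddCore_normal (G := G)).eq_bot_or_eq_top).resolve_right fun h => ?_
      have := oddCore_odd (G := G)
      rw [h, Nat.card_congr Subgroup.topEquiv.toEquiv] at this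
      exact (Nat.not_even_iff_odd.mpr this)
        (even_iff_two_dvd.mpr (hx ▸ orderOf_dvd_natCard x))
    have hxc : x ∈ Subgroup.center G := center_of_no_odd hiso fun g => by
      have := zstar hiso g
      rwa [hbot, Subgroup.mem_bot] at this
    haveI hn : (Subgroup.zpowers x).Normal := ⟨fun m hm g => by
      rw [Subgroup.mem_center_iff.mp (Subgroup.zpowers_le.mpr hxc hm) g, mul_inv_cancel_right]
      exact hm⟩
    have htop := hn.eq_bot_or_eq_top.resolve_left fun h =>
      Involution.ne_one hx (Subgroup.zpowers_eq_bot.mp h)
    have hm : u ∈ Subgroup.zpowers x := htop ▸ Subgroup.mem_top u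
    obtain ⟨i, rfl⟩ := Subgroup.mem_zpowers_iff.mp hm
    rcases Int.even_or_odd i with ⟨r, hr⟩ | ⟨r, hr⟩
    · rw [hr, zpow_add, ← (Commute.refl x).mul_zpow, Involution.mul_self hx, one_zpow,
        orderOf_one] at hu
      norm_num at hu
    · rw [hr, zpow_add_one, two_mul, zpow_add, ← (Commute.refl x).mul_zpow,
        Involution.mul_self hx, one_zpow, one_mul]
  · obtain ⟨a, hxa, hconj, hne⟩ : ∃ a, Commute x a ∧ IsConj x a ∧ a ≠ x := by
      by_contra hcon
      push Not at hcon
      exact hiso ⟨hx, fun g hg => hcon _ hg (isConj_iff.mpr ⟨g, rfl⟩)⟩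
    have ha : orderOf a = 2 := by
      obtain ⟨g, rfl⟩ := isConj_iff.mp hconj
      exact Involution.orderOf_conj' hx
    have h3a := card_three_conj h3 hconj
    have hb : orderOf (x * a) = 2 := by
      refine Involution.orderOf_eq_two ?_ fun h => hne ?_
      · rw [hxa.symm.mul_mul_mul_comm, Involution.mul_self hx, Involution.mul_self ha, one_mul]
      · rw [eq_inv_of_mul_eq_one_right h, Involution.inv_eq hx]
    -- an involution not conjugate to `x` and different from `x * a` commutes with it
    have key : ∀ v : G, orderOf v = 2 → ¬ IsConj x v → v = x * a ∨ Commute (x * a) v := by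
      intro v hv hxv
      have heven : Even (orderOf (x * v)) := Nat.not_odd_iff_even.mp fun h =>
        hxv (Involution.isConj_of_odd hx hv h)
      obtain ⟨hz, hzx, hzv⟩ := Involution.central_involution hx hv heven
      rcases three_involutions hx h3 ha hxa hne hz hzx.symm with e | e | e <;> rw [e] at hzv
      · rcases three_involutions hx h3 ha hxa hne hv hzv with q | q | q
        · exact absurd (q ▸ IsConj.refl x) hxv
        · exact absurd (q ▸ hconj) hxv
        · exact Or.inl q
      · rcases three_involutions ha h3a hx hxa.symm hne.symm hv hzv with q | q | q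
        · exact absurd (q ▸ hconj) hxv
        · exact absurd (q ▸ IsConj.refl x) hxv
        · exact Or.inl (q.trans hxa.symm.eq)
      · exact Or.inr hzv
    have hxb : IsConj x (x * a) := by
      by_contra hxb
      -- the conjugates of `x * a` commute
      have hcomm : ∀ p q, IsConj (x * a) p → IsConj (x * a) q → Commute p q := by
        intro p q hp hq
        obtain ⟨g, rfl⟩ := isConj_iff.mp hp
        have h1 : IsConj (x * a) (g⁻¹ * q * g) :=
          hq.trans (isConj_iff.mpr ⟨g⁻¹, by simp⟩)
        have h2 : orderOf (g⁻¹ * q * g) = 2 := by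
          obtain ⟨k, hk⟩ := isConj_iff.mp h1
          rw [← hk]
          exact Involution.orderOf_conj' hb
        have h4 : Commute (x * a) (g⁻¹ * q * g) := by
          rcases key _ h2 (fun h => hxb (h.trans h1.symm)) with e | e
          · rw [e]
          · exact e
        have := h4.map (MulAut.conj g).toMonoidHom
        simpa [mul_assoc] using this
      have hn : (Subgroup.closure {p | IsConj (x * a) p}).Normal := by
        refine ⟨fun n hn g => ?_⟩
        have hle : Subgroup.closure {p | IsConj (x * a) p} ≤
            (Subgroup.closure {p | IsConj (x * a) p}).comap (MulAut.conj g).toMonoidHom := by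
          rw [Subgroup.closure_le]
          intro p hp
          exact Subgroup.subset_closure ((hp : IsConj (x * a) p).trans (isConj_iff.mpr ⟨g, rfl⟩))
        exact hle hn
      have htop := hn.eq_bot_or_eq_top.resolve_left fun h => Involution.ne_one hb
        (Subgroup.mem_bot.mp (h ▸ Subgroup.subset_closure (IsConj.refl (x * a))))
      have hc : ∀ p, IsConj (x * a) p → p ∈ Subgroup.center G := by
        intro p hp
        have : Subgroup.closure {p | IsConj (x * a) p} ≤ Subgroup.centralizer ({p} : Set G) := by
          rw [Subgroup.closure_le]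
          exact fun q hq => Subgroup.mem_centralizer_singleton_iff.mpr (hcomm q p hq hp).eq
        rw [htop] at this
        exact Subgroup.mem_center_iff.mpr fun g =>
          Subgroup.mem_centralizer_singleton_iff.mp (this (Subgroup.mem_top g))
      have hG : Subgroup.center G = ⊤ := top_le_iff.mp (htop ▸ (Subgroup.closure_le _).mpr hc)
      obtain ⟨g, hg⟩ := isConj_iff.mp hconj
      apply hne
      rw [← hg, ← (Subgroup.mem_center_iff.mp (hG ▸ Subgroup.mem_top g : g ∈ Subgroup.center G) x),
        mul_inv_cancel_right]
    by_contra hxu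
    rcases key u hu hxu with e | e
    · exact hxu (e ▸ hxb)
    · obtain ⟨g, hg⟩ := isConj_iff.mp hxb
      have hga : orderOf (g * a * g⁻¹) = 2 := Involution.orderOf_conj' ha
      have hgc : Commute (x * a) (g * a * g⁻¹) := by
        have h := hxa.map (MulAut.conj g).toMonoidHom
        simpa [hg] using h
      have hgne : g * a * g⁻¹ ≠ x * a := fun h => hne (by
        have h' := h.trans hg.symm
        exact mul_left_cancel (mul_right_cancel h'))
      rcases three_involutions hb (card_three_conj h3 hxb) ha
        (hxa.mul_left (Commute.refl a)) (fun h => Involution.ne_one hx (mul_eq_right.mp h.symm))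
        hu e with q | q | q
      · exact hxu (q ▸ hxb)
      · exact hxu (q ▸ hconj)
      · rw [mul_assoc, Involution.mul_self ha, mul_one] at q
        exact hxu (q ▸ IsConj.refl x)

end CfsgLib.ZStar
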